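import Mathlib

/-! Automorphisms of permutation groups induced by permutations. -/

set_option autoImplicit false

namespace Cfsg.Agent.H8

theorem exists_perm_inducing_iff {Ω : Type*} [Finite Ω] (G : Subgroup (Equiv.Perm Ω))
    (htr : MulAction.IsPretransitive G Ω) (o : Ω) (α : G ≃* G) :
    (∃ σ : Equiv.Perm Ω, σ ∈ Subgroup.normalizer (G : Set (Equiv.Perm Ω)) ∧
      ∀ g : G, ((α g : G) : Equiv.Perm Ω) = σ * (g : Equiv.Perm Ω) * σ⁻¹) ↔
    ∃ ω : Ω, ∀ g ∈ MulAction.stabilizer G o, α g • ω = ω := by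
  constructor
  · rintro ⟨σ, -, hσ⟩
    refine ⟨σ o, fun g hg => ?_⟩
    have h1 : (g : Equiv.Perm Ω) o = o := hg
    change ((α g : G) : Equiv.Perm Ω) (σ o) = σ o
    rw [hσ]
    simp [h1]
  · rintro ⟨ω, hω⟩
    choose r hr using fun x : Ω => htr.exists_smul_eq o x
    let f : Ω → Ω := fun x => α (r x) • ω
    have hf : ∀ g : G, f (g • o) = α g • ω := by
      intro g
      have h1 : g⁻¹ * r (g • o) ∈ MulAction.stabilizer G o := by
        rw [MulAction.mem_stabilizer_iff, mul_smul, hr, inv_smul_smul]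
      have h2 := hω _ h1
      rw [map_mul, map_inv, mul_smul, inv_smul_eq_iff] at h2
      exact h2
    have hsurj : Function.Surjective f := by
      intro y
      obtain ⟨g, rfl⟩ := htr.exists_smul_eq ω y
      exact ⟨α.symm g • o, by rw [hf, MulEquiv.apply_symm_apply]⟩
    let σ : Equiv.Perm Ω := Equiv.ofBijective f (Finite.surjective_iff_bijective.1 hsurj)
    have key : ∀ g : G, ((α g : G) : Equiv.Perm Ω) = σ * (g : Equiv.Perm Ω) * σ⁻¹ := by
      intro g
      rw [eq_mul_inv_iff_mul_eq]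
      ext x
      obtain ⟨k, rfl⟩ := htr.exists_smul_eq o x
      change α g • f (k • o) = f (g • k • o)
      rw [← mul_smul g k o, hf, hf, map_mul, mul_smul]
    refine ⟨σ, ?_, key⟩
    rw [Subgroup.mem_normalizer_iff]
    intro h
    constructor
    · intro hh
      rw [← key ⟨h, hh⟩]
      exact (α _).2
    · intro hh
      have h1 := key (α.symm ⟨_, hh⟩)
      rw [MulEquiv.apply_symm_apply] at h1
      have h2 : h = (α.symm ⟨_, hh⟩ : G) := by simpa using h1
      rw [h2]
      exact (α.symm _).2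

end Cfsg.Agent.H8
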