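import Mathlib
import Cfsg.Agent.H8.PermAut

/-! Subgroups of index `n` in the alternating group of degree `n`, and automorphisms of odd prime
power order. -/

set_option autoImplicit false

namespace Cfsg.Agent.H8

open Equiv Equiv.Perm MulAction
open scoped Pointwise

theorem le_choose_of_lt : ∀ {m j : ℕ}, 0 < j → j < m → m ≤ m.choose j
  | 0, _, _, h => by omega
  | m + 1, 0, h, _ => by omega
  | m + 1, j + 1, _, h => by
    rw [Nat.choose_succ_succ]
    rcases Nat.eq_zero_or_pos j with rfl | hj
    · simp [add_comm]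
    · have h1 := le_choose_of_lt hj (show j < m by omega)
      have h2 := Nat.choose_pos (show j + 1 ≤ m by omega)
      simp only [Nat.succ_eq_add_one] at *
      omega

theorem two_mul_le_choose {m j : ℕ} (h1 : 2 ≤ j) (h2 : j + 2 ≤ m + 1) :
    2 * m ≤ (m + 1).choose j := by
  obtain ⟨j, rfl⟩ : ∃ i, j = i + 1 := ⟨j - 1, by omega⟩
  rw [Nat.choose_succ_succ]
  have h3 := le_choose_of_lt (show 0 < j by omega) (show j < m by omega)
  have h4 := le_choose_of_lt (show 0 < j + 1 by omega) (show j + 1 < m by omega)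
  simp only [Nat.succ_eq_add_one] at *
  omega

variable {Ω : Type*} [Fintype Ω] [DecidableEq Ω]

theorem choose_dvd_index_mul (h3 : 3 ≤ Nat.card Ω) (K : Subgroup (alternatingGroup Ω))
    (S : Set Ω) : (Nat.card Ω).choose S.ncard ∣ K.index * (orbit K S).ncard := by
  classical
  let s : Set.powersetCard Ω S.ncard := ⟨S.toFinset, by simp [Set.ncard_eq_toFinset_card']⟩
  have := Set.powersetCard.isPretransitive_alternatingGroup (n := S.ncard) h3
  have h1 := index_stabilizer_of_transitive (alternatingGroup Ω) s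
  rw [Set.powersetCard.card] at h1
  replace h1 := (congrArg Subgroup.index (Set.powersetCard.stabilizer_coe s)).symm.trans h1
  have h2 : (s : Set Ω) = S := Set.coe_toFinset S
  rw [h2] at h1
  rw [← h1, ← index_stabilizer, mul_comm, ← Subgroup.index_map_subtype]
  apply Subgroup.index_dvd_of_le
  rintro _ ⟨g, hg, rfl⟩
  exact hg

/-- A subgroup of index `n` of the alternating group of degree `n ≥ 5` containing a three-cycle
fixes a point. -/
theorem exists_fixed_of_index_eq (h5 : 5 ≤ Nat.card Ω) (K : Subgroup (alternatingGroup Ω))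
    (hK : K.index = Nat.card Ω) {t : alternatingGroup Ω} (ht : t ∈ K)
    (h3 : IsThreeCycle (t : Perm Ω)) : ∃ ω : Ω, ∀ g ∈ K, g • ω = ω := by
  obtain ⟨n, hn⟩ : ∃ n, Nat.card Ω = n + 1 := ⟨Nat.card Ω - 1, by omega⟩
  by_cases htr : IsPretransitive K Ω
  · exfalso
    by_cases hpr : ∀ {B : Set Ω}, IsBlock K B → IsTrivialBlock B
    · have h1 : IsPreprimitive K Ω := ⟨hpr⟩
      have h2 : IsPreprimitive (K.map (alternatingGroup Ω).subtype) Ω := by
        refine IsPreprimitive.of_surjective (φ := (alternatingGroup Ω).subtype.subgroupMap K)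
          (f := ⟨id, fun _ _ => rfl⟩) Function.surjective_id
      have h4 := alternatingGroup_le_of_isPreprimitive_of_isThreeCycle_mem h2 h3 ⟨t, ht, rfl⟩
      have h6 : K = ⊤ := by
        rw [eq_top_iff]
        intro g _
        obtain ⟨k, hk, he⟩ := h4 g.2
        rwa [← Subtype.ext he]
      rw [h6, Subgroup.index_top] at hK
      omega
    · push Not at hpr
      obtain ⟨B, hB, hB'⟩ := hpr
      simp only [IsTrivialBlock, not_or, Set.not_subsingleton_iff] at hB'
      have h1 := hB.ncard_block_mul_ncard_orbit_eq hB'.1.nonempty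
      have h2 := choose_dvd_index_mul (by omega) K B
      have h4 : 2 ≤ B.ncard := (Set.one_lt_ncard_iff_nontrivial.2 hB'.1)
      have h6 : B.ncard < Nat.card Ω := by
        rw [← Set.ncard_univ]
        exact Set.ncard_lt_ncard (Set.ssubset_univ_iff.2 hB'.2)
      set m := (orbit K B).ncard
      obtain ⟨b, hb⟩ : ∃ b, B.ncard = b + 1 := ⟨B.ncard - 1, by omega⟩
      have h7 : 2 ≤ m := by
        by_contra hc
        have : m = 0 ∨ m = 1 := by omega
        rcases this with h | h <;> rw [h] at h1 <;> omega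
      rw [hK, hn, hb] at h2
      rw [hn, hb] at h1
      have h8 : n.choose b ∣ n + 1 := by
        have e1 := Nat.add_one_mul_choose_eq n b
        have e2 := Nat.mul_dvd_mul_right h2 (b + 1)
        rw [← e1, mul_assoc, mul_comm m, h1] at e2
        exact Nat.dvd_of_mul_dvd_mul_left (by omega) e2
      have h9 : 2 * (b + 1) ≤ n + 1 := by nlinarith
      have h10 := Nat.le_of_dvd (by omega) h8
      by_cases hb1 : b = 1
      · rw [hb1, Nat.choose_one_right] at h8
        have := Nat.le_of_dvd one_pos ((Nat.dvd_add_right dvd_rfl).1 h8)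
        omega
      · obtain ⟨n, rfl⟩ : ∃ k, n = k + 1 := ⟨n - 1, by omega⟩
        have := two_mul_le_choose (m := n) (j := b) (by omega) (by omega)
        omega
  · have : Nonempty Ω := Finite.card_pos_iff.1 (by omega)
    obtain ⟨o⟩ := this
    have h1 : orbit K o ≠ Set.univ := fun h => htr ((isPretransitive_iff_orbit_eq_univ o).2 h)
    have h2 := choose_dvd_index_mul (by omega) K (orbit K o)
    have h4 : orbit K (orbit K o) = {orbit K o} := by
      ext S
      simp only [Set.mem_singleton_iff]
      constructor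
      · rintro ⟨g, rfl⟩
        exact smul_orbit g o
      · rintro rfl
        exact mem_orbit_self _
    rw [h4, Set.ncard_singleton, mul_one, hK, hn] at h2
    have h6 : (orbit K o).ncard < Nat.card Ω := by
      rw [← Set.ncard_univ]
      exact Set.ncard_lt_ncard (Set.ssubset_univ_iff.2 h1)
    have h7 : 0 < (orbit K o).ncard := (Set.ncard_pos).2 ⟨o, mem_orbit_self o⟩
    have h8 := Nat.le_of_dvd (by omega) h2
    have h9 : (orbit K o).ncard = 1 ∨ (orbit K o)ᶜ.ncard = 1 := by
      rw [Set.ncard_compl]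
      by_contra hc
      have := two_mul_le_choose (m := n) (j := (orbit K o).ncard) (by omega) (by omega)
      omega
    rcases h9 with h | h
    · obtain ⟨ω, hω⟩ := Set.ncard_eq_one.1 h
      refine ⟨o, fun g hg => ?_⟩
      have e1 : o ∈ ({ω} : Set Ω) := hω ▸ mem_orbit_self o
      have e2 : g • o ∈ ({ω} : Set Ω) := hω ▸ ⟨⟨g, hg⟩, rfl⟩
      exact e2.trans e1.symm
    · obtain ⟨ω, hω⟩ := Set.ncard_eq_one.1 h
      refine ⟨ω, fun g hg => ?_⟩
      have e1 : ω ∈ (orbit K o)ᶜ := hω ▸ Set.mem_singleton ω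
      rw [← Set.mem_singleton_iff, ← hω]
      intro h
      obtain ⟨k, hk⟩ := h
      exact e1 ⟨(⟨g, hg⟩ : K)⁻¹ * k, by
        simp only at hk ⊢
        rw [mul_smul, hk, inv_smul_eq_iff]; rfl⟩

theorem isConj_of_orderOf_three (h5 : 5 ≤ Nat.card Ω) {σ τ : alternatingGroup Ω}
    (hσ : orderOf σ = 3) (hτ : orderOf τ = 3)
    (h : (σ : Perm Ω).cycleType.card = (τ : Perm Ω).cycleType.card) : IsConj σ τ := by
  have h1 := cycleType_of_pow_prime_eq_one (σ := (σ : Perm Ω)) (p := 3) (by
    rw [← Subgroup.coe_pow, ← hσ, pow_orderOf_eq_one]; rfl)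
  have h2 := cycleType_of_pow_prime_eq_one (σ := (τ : Perm Ω)) (p := 3) (by
    rw [← Subgroup.coe_pow, ← hτ, pow_orderOf_eq_one]; rfl)
  obtain ⟨π, hπ⟩ := isConj_iff.1 (isConj_iff_cycleType_eq.2 (h1.trans (h ▸ h2.symm)))
  by_cases hp : π ∈ alternatingGroup Ω
  · exact isConj_iff.2 ⟨⟨π, hp⟩, Subtype.ext hπ⟩
  have h3 : ¬ Subgroup.centralizer {(σ : Perm Ω)} ≤ alternatingGroup Ω := by
    rw [centralizer_le_alternating_iff]
    rintro ⟨-, a1, a2⟩
    have a3 := a2 3
    rw [h1, Multiset.count_replicate_self] at a3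
    rw [h1, Multiset.sum_replicate, smul_eq_mul, ← Nat.card_eq_fintype_card] at a1
    omega
  obtain ⟨c, hc, hc'⟩ := SetLike.not_le_iff_exists.1 h3
  refine isConj_iff.2 ⟨⟨π * c, ?_⟩, Subtype.ext ?_⟩
  · rw [mem_alternatingGroup] at hp hc' ⊢
    rw [map_mul, (Int.units_eq_one_or _).resolve_left hp, (Int.units_eq_one_or _).resolve_left hc']
    simp
  · rw [Subgroup.mem_centralizer_singleton_iff] at hc
    simp only [Subgroup.coe_mul, Subgroup.coe_inv]
    rw [← hπ, mul_assoc π c, hc]; group

/-- An automorphism of `q`-power order of the alternating group of degree `n`, with `q` an odd prime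
and `5 ≤ n < 3 q`, is inner. -/
theorem inner_of_orderOf_eq_pow (h5 : 5 ≤ Nat.card Ω) {q j : ℕ} (hq : q.Prime) (hq2 : q ≠ 2)
    (hn : Nat.card Ω < 3 * q) {α : MulAut (alternatingGroup Ω)} (hα : orderOf α = q ^ j) :
    ∃ g, MulAut.conj g = α := by
  obtain ⟨o⟩ : Nonempty Ω := Finite.card_pos_iff.1 (by omega)
  have htr := alternatingGroup.isPretransitive_of_three_le_card Ω (by omega)
  obtain ⟨t, ht, hto⟩ : ∃ t : alternatingGroup Ω, IsThreeCycle (t : Perm Ω) ∧ t • o = o := by
    obtain ⟨g, hg⟩ := (exists_with_cycleType_iff Ω (m := {3})).2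
      ⟨by rw [← Nat.card_eq_fintype_card, Multiset.sum_singleton]; omega, by simp⟩
    have hg' : IsThreeCycle g := hg
    obtain ⟨x, hx⟩ : ∃ x, x ∉ g.support := by
      by_contra hc
      push Not at hc
      have := hg'.card_support
      rw [Finset.eq_univ_of_forall hc, Finset.card_univ, ← Nat.card_eq_fintype_card] at this
      omega
    refine ⟨⟨swap x o * g * (swap x o)⁻¹, ?_⟩, ?_, ?_⟩
    · rw [mem_alternatingGroup, map_mul, map_mul, hg'.sign, map_inv, mul_one, mul_inv_cancel]
    · exact (cycleType_conj (σ := g) (τ := swap x o)).trans hg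
    · change (swap x o * g * (swap x o)⁻¹) o = o
      simp [notMem_support.1 hx]
  have ht3 : orderOf t = 3 := by rw [← Subgroup.orderOf_coe, ht.orderOf]
  let S : Subgroup (MulAut (alternatingGroup Ω)) :=
    { carrier := {β | IsConj t (β t)}
      one_mem' := IsConj.refl t
      mul_mem' := fun {a b} ha hb => ha.trans (a.toMonoidHom.map_isConj hb)
      inv_mem' := fun {a} ha => by
        have := (a⁻¹).toMonoidHom.map_isConj ha
        simpa using this.symm }
  have hαS : α ∈ S := by
    let f : ℕ → ℕ := fun i => (((α ^ i) t : alternatingGroup Ω) : Perm Ω).cycleType.card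
    have h3 : ∀ i, orderOf ((α ^ i) t) = 3 := fun i => by rw [MulEquiv.orderOf_eq, ht3]
    obtain ⟨i, hi, k, hk, hik, he⟩ := Finset.exists_ne_map_eq_of_card_lt_of_maps_to
      (s := Finset.range q) (t := Finset.Icc 1 (q - 1)) (f := f) (by
        have := hq.pos
        simp; omega) (by
        intro i _
        have h1 := cycleType_of_pow_prime_eq_one (σ := (((α ^ i) t : alternatingGroup Ω) : Perm Ω))
          (p := 3) (by rw [← Subgroup.coe_pow, ← h3 i, pow_orderOf_eq_one]; rfl)
        have h2 := sum_cycleType_le (((α ^ i) t : alternatingGroup Ω) : Perm Ω)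
        rw [h1, Multiset.sum_replicate, smul_eq_mul, ← Nat.card_eq_fintype_card] at h2
        have h4 : 0 < f i := by
          rw [card_cycleType_pos]
          intro h
          have := h3 i
          rw [← Subgroup.orderOf_coe, h, orderOf_one] at this
          omega
        simp only [Finset.coe_Icc, Set.mem_Icc]
        change f i * 3 ≤ _ at h2
        omega)
    wlog hlt : i < k generalizing i k
    · exact this k hk i hi hik.symm he.symm (by omega)
    have h4 := isConj_of_orderOf_three h5 (h3 i) (h3 k) he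
    have h6 : α ^ (k - i) ∈ S := by
      have := ((α ^ i)⁻¹).toMonoidHom.map_isConj h4
      change IsConj t ((α ^ (k - i)) t)
      rw [show k = i + (k - i) by omega, pow_add] at this
      simpa using this
    have h7 : (k - i).Coprime (orderOf α) := by
      rw [hα]
      refine Nat.Coprime.pow_right _ (Nat.coprime_comm.1 (hq.coprime_iff_not_dvd.2 fun hd => ?_))
      have := Nat.le_of_dvd (by omega) hd
      have := Finset.mem_range.1 hk
      omega
    obtain ⟨m, hm⟩ := exists_pow_eq_self_of_coprime h7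
    rw [← hm]
    exact pow_mem h6 m
  have h3 : IsThreeCycle ((α t : alternatingGroup Ω) : Perm Ω) :=
    (isConj_iff_cycleType_eq.1 ((alternatingGroup Ω).subtype.map_isConj hαS)).symm.trans ht
  obtain ⟨ω, hω⟩ := exists_fixed_of_index_eq h5
    ((stabilizer (alternatingGroup Ω) o).map α.toMonoidHom) (by
      rw [← index_stabilizer_of_transitive (alternatingGroup Ω) o]
      exact Subgroup.index_map_equiv _ α) ⟨t, hto, rfl⟩ h3
  obtain ⟨σ, -, hσ⟩ := (exists_perm_inducing_iff (alternatingGroup Ω) htr o α).2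
    ⟨ω, fun g hg => hω _ ⟨g, hg, rfl⟩⟩
  have h4 : ∀ i : ℕ, ∀ g, (((α ^ i) g : alternatingGroup Ω) : Perm Ω) = σ ^ i * g * (σ ^ i)⁻¹ := by
    intro i
    induction i with
    | zero => simp
    | succ i ih =>
      intro g
      rw [pow_succ', MulAut.mul_apply, hσ, ih, pow_succ']; group
  have h6 : Even (orderOf α + 1) := by
    rw [hα]
    exact ((hq.odd_of_ne_two hq2).pow).add_one
  refine ⟨⟨σ ^ (orderOf α + 1), ?_⟩, MulEquiv.ext fun g => Subtype.ext ?_⟩
  · rw [mem_alternatingGroup, map_pow]
    rcases Int.units_eq_one_or (sign σ) with h | h <;> rw [h]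
    · exact one_pow _
    · exact h6.neg_one_pow
  · have := h4 (orderOf α + 1) g
    rw [pow_succ α, pow_orderOf_eq_one, one_mul] at this
    rw [this]; rfl

end Cfsg.Agent.H8
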